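import Cfsg.Agent.H776.Co.Model
import Mathlib.Tactic.ReduceModChar
import Mathlib.Data.ZMod.Units
import Mathlib.GroupTheory.Index

/-!
Task 3763 (S5227, section C5): `A` is the unique elementary abelian subgroup of order `3 ^ 6` of `P`, the elementary abelian
subgroups of order `3 ^ 5` are in `A` or one of the `DD i`, and the automorphisms of `R3` respect `W1`, `W3`, `R1 ⊓ R3` and
`{W5, DD i}`.
-/

set_option autoImplicit false
set_option linter.style.longLine false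

namespace Cfsg.Agent.H328.CoP

open Subgroup Cfsg.Agent.H776.Co Cfsg.Agent.H776.Co.P

/-! ### counting -/

/-- a subgroup `B` on which the values of `θ` separate the cosets of `C` -/
theorem card_le_of_fibre {G X : Type*} [Group G] [Finite G] [Finite X] (B C : Subgroup G) (θ : G → X)
    (h : ∀ x ∈ B, ∀ y ∈ B, θ x = θ y → x⁻¹ * y ∈ C) : Nat.card B ≤ Nat.card X * Nat.card ↥(B ⊓ C) := by
  classical
  have h1 : Nat.card B = Nat.card (B ⧸ (C.subgroupOf B)) * Nat.card ↥(C.subgroupOf B) := by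
    rw [← Subgroup.card_eq_card_quotient_mul_card_subgroup]
  have h2 : Nat.card ↥(C.subgroupOf B) = Nat.card ↥(B ⊓ C) := by
    rw [inf_comm, ← Subgroup.subgroupOf_map_subtype]
    exact (Nat.card_congr (Subgroup.equivMapOfInjective _ _ B.subtype_injective).toEquiv)
  have h3 : Nat.card (B ⧸ (C.subgroupOf B)) ≤ Nat.card X := by
    refine Nat.card_le_card_of_injective (fun q : B ⧸ (C.subgroupOf B) => θ (q.out : B)) fun q r hqr => ?_
    have h4 : ((q.out : B) : G)⁻¹ * ((r.out : B) : G) ∈ C := h _ (q.out).2 _ (r.out).2 hqr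
    rw [← Quotient.out_eq' q, ← Quotient.out_eq' r]
    refine QuotientGroup.eq.2 ?_
    exact Subgroup.mem_subgroupOf.2 (by simpa using h4)
  rw [h1, h2]
  exact Nat.mul_le_mul_right _ h3

/-- the same with a bound for the number of values -/
theorem card_le_of_fibre' {G X : Type*} [Group G] [Finite G] [Finite X] (B C : Subgroup G) (θ : G → X) (S : Set X)
    (hS : ∀ x ∈ B, θ x ∈ S)
    (h : ∀ x ∈ B, ∀ y ∈ B, θ x = θ y → x⁻¹ * y ∈ C) : Nat.card B ≤ Nat.card S * Nat.card ↥(B ⊓ C) := by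
  classical
  have h0 : Nonempty S := ⟨⟨θ 1, hS 1 B.one_mem⟩⟩
  refine card_le_of_fibre B C (fun x => if hx : θ x ∈ S then (⟨θ x, hx⟩ : S) else h0.some) fun x hx y hy hxy => ?_
  simp only [dif_pos (hS x hx), dif_pos (hS y hy)] at hxy
  exact h x hx y hy (congrArg Subtype.val hxy)

/-- a subgroup injected by `θ` -/
theorem card_le_of_inj {G X : Type*} [Group G] [Finite X] (B : Subgroup G) (θ : G → X)
    (h : ∀ x ∈ B, ∀ y ∈ B, θ x = θ y → x = y) : Nat.card B ≤ Nat.card X :=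
  Nat.card_le_card_of_injective (fun x : B => θ x) fun x y hxy => Subtype.ext (h _ x.2 _ y.2 hxy)

theorem card_zmod_three : Nat.card (ZMod 3) = 3 := Nat.card_zmod 3

/-! ### equations -/

theorem ne_zero_cases {a : ZMod 3} (h : a ≠ 0) : a = 1 ∨ a = -1 := by
  revert a; decide

/-- the commutation of two elements -/
theorem comm_iff (x y : P) : x * y = y * x ↔
    x.a * y.b = y.a * x.b ∧
    2 * x.a * y.m12 + 2 * x.c * y.m13 + x.a ^ 2 * y.m22 + 2 * x.a * x.c * y.m23 + x.c ^ 2 * y.m33 =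
      2 * y.a * x.m12 + 2 * y.c * x.m13 + y.a ^ 2 * x.m22 + 2 * y.a * y.c * x.m23 + y.c ^ 2 * x.m33 ∧
    x.a * y.m22 + x.c * y.m23 + x.b * (y.m13 + x.a * y.m23 + x.c * y.m33) =
      y.a * x.m22 + y.c * x.m23 + y.b * (x.m13 + y.a * x.m23 + y.c * x.m33) ∧
    2 * x.b * y.m23 + x.b ^ 2 * y.m33 = 2 * y.b * x.m23 + y.b ^ 2 * x.m33 ∧
    x.a * y.m23 + x.c * y.m33 = y.a * x.m23 + y.c * x.m33 ∧
    x.b * y.m33 = y.b * x.m33 := by
  constructor
  · intro h
    have hc := congrArg P.c h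
    have h11 := congrArg P.m11 h
    have h12 := congrArg P.m12 h
    have h22 := congrArg P.m22 h
    have h13 := congrArg P.m13 h
    have h23 := congrArg P.m23 h
    simp only [mul_c, mul_m11, mul_m12, mul_m22, mul_m13, mul_m23] at hc h11 h12 h22 h13 h23
    refine ⟨?_, ?_, ?_, ?_, ?_, ?_⟩
    · linear_combination hc
    · linear_combination h11
    · linear_combination h12
    · linear_combination h22
    · linear_combination h13
    · linear_combination h23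
  · rintro ⟨hc, h11, h12, h22, h13, h23⟩
    ext
    · simp only [mul_a]; ring
    · simp only [mul_b]; ring
    · simp only [mul_c]; linear_combination hc
    · simp only [mul_m11]; linear_combination h11
    · simp only [mul_m12]; linear_combination h12
    · simp only [mul_m22]; linear_combination h22
    · simp only [mul_m13]; linear_combination h13
    · simp only [mul_m23]; linear_combination h23
    · simp only [mul_m33]; ring

theorem three_eq : (3 : ZMod 3) = 0 := by decide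

/-- the cube of an element of `R1` -/
theorem cube_R1 {x : P} (ha : x.a = 0) (hx : x ^ 3 = 1) : x.b * x.m33 = 0 ∧ x.c * x.m33 = 0 := by
  have h1 : x ^ 3 = x * (x * x) := by rw [pow_succ, pow_two, mul_assoc]
  rw [h1] at hx
  have h11 := congrArg P.m11 hx
  have h22 := congrArg P.m22 hx
  simp only [mul_m11, mul_m22, mul_m13, mul_m23, mul_m33, ha, one_m11, one_m22] at h11 h22
  have h2 : x.c ^ 2 * x.m33 = 0 := by
    linear_combination 2 * h11 - (2 * x.m11 + 4 * x.c * x.m13 + 3 * x.c ^ 2 * x.m33) * three_eq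
  have h3 : x.b ^ 2 * x.m33 = 0 := by
    linear_combination 2 * h22 - (2 * x.m22 + 4 * x.b * x.m23 + 3 * x.b ^ 2 * x.m33) * three_eq
  constructor
  · rcases mul_eq_zero.1 h3 with h | h
    · rw [pow_eq_zero_iff two_ne_zero] at h
      rw [h, zero_mul]
    · rw [h, mul_zero]
  · rcases mul_eq_zero.1 h2 with h | h
    · rw [pow_eq_zero_iff two_ne_zero] at h
      rw [h, zero_mul]
    · rw [h, mul_zero]

/-! ### centralizers in `A` of elements outside `A` -/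

/-- the elements of `A` commuting with `x` -/
theorem comm_A_iff (x : P) {y : P} (hy : y ∈ A) : x * y = y * x ↔
    2 * x.a * y.m12 + 2 * x.c * y.m13 + x.a ^ 2 * y.m22 + 2 * x.a * x.c * y.m23 + x.c ^ 2 * y.m33 = 0 ∧
    x.a * y.m22 + x.c * y.m23 + x.b * (y.m13 + x.a * y.m23 + x.c * y.m33) = 0 ∧
    2 * x.b * y.m23 + x.b ^ 2 * y.m33 = 0 ∧ x.a * y.m23 + x.c * y.m33 = 0 ∧ x.b * y.m33 = 0 := by
  obtain ⟨h1, h2, h3⟩ := hy
  rw [comm_iff]
  simp [h1, h2, h3]

/-- the coordinates which determine an element of `C_A(x)` -/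
def crd3 (x y : P) : ZMod 3 × ZMod 3 × ZMod 3 :=
  if x.b ≠ 0 then (y.m11, y.m22, if x.a = 0 then y.m12 else 0) else
    if x.a ≠ 0 then (y.m11, y.m13, y.m33) else (y.m11, y.m12, y.m22)

theorem two_ne : (2 : ZMod 3) ≠ 0 := by decide

theorem lin1 {a b c m12 m22 m13 m23 m33 : ZMod 3} (hb : b ≠ 0)
    (e11 : 2 * a * m12 + 2 * c * m13 + a ^ 2 * m22 + 2 * a * c * m23 + c ^ 2 * m33 = 0)
    (e12 : a * m22 + c * m23 + b * (m13 + a * m23 + c * m33) = 0)
    (e22 : 2 * b * m23 + b ^ 2 * m33 = 0) (e23 : b * m33 = 0)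
    (h22 : m22 = 0) (h12 : a = 0 → m12 = 0) : m12 = 0 ∧ m13 = 0 ∧ m23 = 0 ∧ m33 = 0 := by
  have h33 : m33 = 0 := (mul_eq_zero.1 e23).resolve_left hb
  subst h33 h22
  have h23 : m23 = 0 := by
    have : (2 * b) * m23 = 0 := by linear_combination e22
    exact (mul_eq_zero.1 this).resolve_left (mul_ne_zero two_ne hb)
  subst h23
  have h13 : m13 = 0 := by
    have : b * m13 = 0 := by linear_combination e12
    exact (mul_eq_zero.1 this).resolve_left hb
  subst h13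
  refine ⟨?_, rfl, rfl, rfl⟩
  by_cases ha : a = 0
  · exact h12 ha
  · have : (2 * a) * m12 = 0 := by linear_combination e11
    exact (mul_eq_zero.1 this).resolve_left (mul_ne_zero two_ne ha)

theorem lin2 {a c m12 m22 m13 m23 m33 : ZMod 3} (ha : a ≠ 0)
    (e11 : 2 * a * m12 + 2 * c * m13 + a ^ 2 * m22 + 2 * a * c * m23 + c ^ 2 * m33 = 0)
    (e12 : a * m22 + c * m23 = 0)
    (e13 : a * m23 + c * m33 = 0)
    (h13 : m13 = 0) (h33 : m33 = 0) : m12 = 0 ∧ m22 = 0 ∧ m23 = 0 := by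
  subst h13 h33
  have h23 : m23 = 0 := by
    have : a * m23 = 0 := by linear_combination e13
    exact (mul_eq_zero.1 this).resolve_left ha
  subst h23
  have h22 : m22 = 0 := by
    have : a * m22 = 0 := by linear_combination e12
    exact (mul_eq_zero.1 this).resolve_left ha
  subst h22
  refine ⟨?_, rfl, rfl⟩
  have : (2 * a) * m12 = 0 := by linear_combination e11
  exact (mul_eq_zero.1 this).resolve_left (mul_ne_zero two_ne ha)

theorem lin3 {c m13 m23 m33 : ZMod 3} (hc : c ≠ 0) (e11 : 2 * c * m13 + c ^ 2 * m33 = 0)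
    (e12 : c * m23 = 0) (e13 : c * m33 = 0) : m13 = 0 ∧ m23 = 0 ∧ m33 = 0 := by
  have h33 : m33 = 0 := (mul_eq_zero.1 e13).resolve_left hc
  have h23 : m23 = 0 := (mul_eq_zero.1 e12).resolve_left hc
  subst h33 h23
  have : (2 * c) * m13 = 0 := by linear_combination e11
  exact ⟨(mul_eq_zero.1 this).resolve_left (mul_ne_zero two_ne hc), rfl, rfl⟩

theorem card_cA_le {x : P} (hx : x ∉ A) (C : Subgroup P) (hC : C ≤ A) (hc : ∀ y ∈ C, x * y = y * x) : Nat.card C ≤ 27 := by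
  have h1 : Nat.card C ≤ Nat.card (ZMod 3 × ZMod 3 × ZMod 3) := by
    refine card_le_of_inj C (crd3 x) fun y hy z hz h => ?_
    obtain ⟨ya, yb, yc⟩ := hC hy
    obtain ⟨za, zb, zc⟩ := hC hz
    obtain ⟨y11, y12, y22, y13, y23⟩ := (comm_A_iff x (hC hy)).1 (hc y hy)
    obtain ⟨z11, z12, z22, z13, z23⟩ := (comm_A_iff x (hC hz)).1 (hc z hz)
    rw [crd3, crd3] at h
    by_cases hb : x.b = 0
    · by_cases ha : x.a = 0
      · have hc' : x.c ≠ 0 := fun h => hx ⟨ha, hb, h⟩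
        rw [if_neg (not_not.2 hb), if_neg (not_not.2 ha), if_neg (not_not.2 hb), if_neg (not_not.2 ha), Prod.mk.injEq, Prod.mk.injEq] at h
        obtain ⟨h11, h12, h22⟩ := h
        simp only [ha, hb, mul_zero, zero_mul, zero_add, ne_eq, OfNat.ofNat_ne_zero, not_false_eq_true, zero_pow] at y11 y12 y13 z11 z12 z13
        obtain ⟨h1, h2, h3⟩ := lin3 (c := x.c) (m13 := y.m13 - z.m13) (m23 := y.m23 - z.m23) (m33 := y.m33 - z.m33) hc'
          (by linear_combination y11 - z11) (by linear_combination y12 - z12) (by linear_combination y13 - z13)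
        ext
        · rw [ya, za]
        · rw [yb, zb]
        · rw [yc, zc]
        · exact h11
        · exact h12
        · exact h22
        · exact sub_eq_zero.1 h1
        · exact sub_eq_zero.1 h2
        · exact sub_eq_zero.1 h3
      · rw [if_neg (not_not.2 hb), if_pos ha, if_neg (not_not.2 hb), if_pos ha, Prod.mk.injEq, Prod.mk.injEq] at h
        obtain ⟨h11, h13, h33⟩ := h
        simp only [hb, zero_mul, add_zero] at y12 z12
        obtain ⟨h1, h2, h3⟩ := lin2 (a := x.a) (c := x.c) (m12 := y.m12 - z.m12) (m22 := y.m22 - z.m22) (m13 := y.m13 - z.m13) (m23 := y.m23 - z.m23) (m33 := y.m33 - z.m33) ha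
          (by linear_combination y11 - z11) (by linear_combination y12 - z12) (by linear_combination y13 - z13)
          (by rw [h13, sub_self]) (by rw [h33, sub_self])
        ext
        · rw [ya, za]
        · rw [yb, zb]
        · rw [yc, zc]
        · exact h11
        · exact sub_eq_zero.1 h1
        · exact sub_eq_zero.1 h2
        · exact h13
        · exact sub_eq_zero.1 h3
        · exact h33
    · rw [if_pos hb, if_pos hb, Prod.mk.injEq, Prod.mk.injEq] at h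
      obtain ⟨h11, h22, h12⟩ := h
      obtain ⟨h1, h2, h3, h4⟩ := lin1 (a := x.a) (b := x.b) (c := x.c) (m12 := y.m12 - z.m12) (m22 := y.m22 - z.m22) (m13 := y.m13 - z.m13) (m23 := y.m23 - z.m23) (m33 := y.m33 - z.m33) hb
          (by linear_combination y11 - z11) (by linear_combination y12 - z12) (by linear_combination y22 - z22) (by linear_combination y23 - z23)
          (by rw [h22, sub_self]) (fun ha => by rw [if_pos ha, if_pos ha] at h12; rw [h12, sub_self])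
      ext
      · rw [ya, za]
      · rw [yb, zb]
      · rw [yc, zc]
      · exact h11
      · exact sub_eq_zero.1 h1
      · exact h22
      · exact sub_eq_zero.1 h2
      · exact sub_eq_zero.1 h3
      · exact sub_eq_zero.1 h4
  simpa [Nat.card_prod, card_zmod_three] using h1

theorem line {a b c d : ZMod 3} (h : a ≠ 0 ∨ b ≠ 0) (h1 : a * d = c * b) (h2 : (if a = 0 then d else c) = 0) : c = 0 ∧ d = 0 := by
  revert a b c d; decide

/-- a commutative subgroup not in `A` has order at most `9 |B ∩ A|` -/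
theorem card_le_nine {B : Subgroup P} (hB : ∀ x ∈ B, ∀ y ∈ B, x * y = y * x) :
    Nat.card B ≤ 9 * Nat.card ↥(B ⊓ A) := by
  by_cases hx : ∃ x ∈ B, x.a ≠ 0 ∨ x.b ≠ 0
  · obtain ⟨x, hx, hab⟩ := hx
    have h1 : Nat.card B ≤ Nat.card (ZMod 3 × ZMod 3) * Nat.card ↥(B ⊓ A) := by
      refine card_le_of_fibre B A (fun y => (if x.a = 0 then y.b else y.a, y.c)) fun y hy z hz h => ?_
      rw [Prod.mk.injEq] at h
      obtain ⟨h1, h2⟩ := h
      have hy' := ((comm_iff x (y⁻¹ * z)).1 (hB x hx _ (B.mul_mem (B.inv_mem hy) hz))).1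
      have h3 : (if x.a = 0 then (y⁻¹ * z).b else (y⁻¹ * z).a) = 0 := by
        split_ifs at h1 ⊢ with h0
        · rw [mul_b, inv_b, h1, neg_add_cancel]
        · rw [mul_a, inv_a, h1, neg_add_cancel]
      obtain ⟨h4, h5⟩ := line hab hy' h3
      refine ⟨h4, h5, ?_⟩
      rw [mul_a, inv_a, neg_add_eq_zero] at h4
      rw [mul_b, inv_b, neg_add_eq_zero] at h5
      rw [mul_c, inv_c, inv_a, h2, h4, h5]
      ring
    simpa [Nat.card_prod, card_zmod_three] using h1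
  · push Not at hx
    have h1 : Nat.card B ≤ Nat.card (ZMod 3) * Nat.card ↥(B ⊓ A) := by
      refine card_le_of_fibre B A (fun y => y.c) fun y hy z hz h => ?_
      refine ⟨by rw [mul_a, inv_a, (hx y hy).1, (hx z hz).1]; simp, by rw [mul_b, inv_b, (hx y hy).2, (hx z hz).2]; simp, ?_⟩
      rw [mul_c, inv_c, inv_a, (hx y hy).1, (hx z hz).2, ← h]
      ring
    rw [card_zmod_three] at h1
    omega

/-- a commutative subgroup not in `A` has order at most `3 ^ 5` -/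
theorem card_le_of_comm {B : Subgroup P} (hB : ∀ x ∈ B, ∀ y ∈ B, x * y = y * x) (hA : ¬ B ≤ A) :
    Nat.card B ≤ 243 ∧ Nat.card ↥(B ⊓ A) ≤ 27 := by
  obtain ⟨x, hx, hxA⟩ := SetLike.not_le_iff_exists.1 hA
  have h1 := card_cA_le hxA (B ⊓ A) inf_le_right fun y hy => hB x hx y hy.1
  have h2 := card_le_nine hB
  omega

/-! ### cardinalities -/

theorem card_A : Nat.card A = 3 ^ 6 := by
  have h1 : Nat.card A = Nat.card (ZMod 3 × ZMod 3 × ZMod 3 × ZMod 3 × ZMod 3 × ZMod 3) := by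
    refine Nat.card_congr ⟨fun x => (x.1.m11, x.1.m12, x.1.m22, x.1.m13, x.1.m23, x.1.m33),
      fun t => ⟨⟨0, 0, 0, t.1, t.2.1, t.2.2.1, t.2.2.2.1, t.2.2.2.2.1, t.2.2.2.2.2⟩, rfl, rfl, rfl⟩, fun x => ?_, fun t => rfl⟩
    obtain ⟨x, h1, h2, h3⟩ := x
    refine Subtype.ext ?_
    ext <;> simp [h1, h2, h3]
  rw [h1]
  simp

theorem card_W5 : Nat.card W5 = 3 ^ 5 := by
  have h1 : Nat.card W5 = Nat.card (ZMod 3 × ZMod 3 × ZMod 3 × ZMod 3 × ZMod 3) := by
    refine Nat.card_congr ⟨fun x => (x.1.m11, x.1.m12, x.1.m22, x.1.m13, x.1.m23),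
      fun t => ⟨⟨0, 0, 0, t.1, t.2.1, t.2.2.1, t.2.2.2.1, t.2.2.2.2, 0⟩, rfl, rfl, rfl, rfl⟩, fun x => ?_, fun t => rfl⟩
    obtain ⟨x, h1, h2, h3, h4⟩ := x
    refine Subtype.ext ?_
    ext <;> simp [h1, h2, h3, h4]
  rw [h1]
  simp

theorem card_DD (i : ZMod 3) : Nat.card (DD i) = 3 ^ 5 := by
  have h1 : Nat.card (DD i) = Nat.card (ZMod 3 × ZMod 3 × ZMod 3 × ZMod 3 × ZMod 3) := by
    refine Nat.card_congr ⟨fun x => (x.1.b, x.1.c, x.1.m11, x.1.m12, x.1.m22),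
      fun t => ⟨⟨0, t.1, t.2.1, t.2.2.1, t.2.2.2.1, t.2.2.2.2, i * t.2.1, i * t.1, 0⟩, rfl, rfl, rfl, rfl⟩, fun x => ?_, fun t => rfl⟩
    obtain ⟨x, h1, h2, h3, h4⟩ := x
    refine Subtype.ext ?_
    ext <;> simp [h1, h2, h3, h4]
  rw [h1]
  simp

theorem card_W3 : Nat.card W3 = 3 ^ 3 := by
  have h1 : Nat.card W3 = Nat.card (ZMod 3 × ZMod 3 × ZMod 3) := by
    refine Nat.card_congr ⟨fun x => (x.1.m11, x.1.m12, x.1.m22),
      fun t => ⟨⟨0, 0, 0, t.1, t.2.1, t.2.2, 0, 0, 0⟩, rfl, rfl, rfl, rfl, rfl, rfl⟩, fun x => ?_, fun t => rfl⟩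
    obtain ⟨x, h1, h2, h3, h4, h5, h6⟩ := x
    refine Subtype.ext ?_
    ext <;> simp [h1, h2, h3, h4, h5, h6]
  rw [h1]
  simp

/-! ### the theorems -/

/-- `A` is the unique elementary abelian subgroup of order `3 ^ 6` (the exponent is not needed) -/
theorem A_unique' {B : Subgroup P} (h1 : Nat.card B = 3 ^ 6) (h3 : ∀ x ∈ B, ∀ y ∈ B, x * y = y * x) : B = A := by
  by_contra hne
  have hA : ¬ B ≤ A := by
    intro hle
    exact hne (Subgroup.eq_of_le_of_card_ge hle (by rw [h1, card_A]))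
  have := (card_le_of_comm h3 hA).1
  rw [h1] at this
  norm_num at this

theorem A_unique {B : Subgroup P} (h1 : Nat.card B = 3 ^ 6) (_h2 : ∀ x ∈ B, x ^ 3 = 1) (h3 : ∀ x ∈ B, ∀ y ∈ B, x * y = y * x) :
    B = A := A_unique' h1 h3

/-- the regular elements have `|C_A(x)| ≤ 9` -/
theorem card_cA_le_nine {x : P} (ha : x.a ≠ 0) (hb : x.b ≠ 0) (C : Subgroup P) (hC : C ≤ A) (hc : ∀ y ∈ C, x * y = y * x) :
    Nat.card C ≤ 9 := by
  have h1 : Nat.card C ≤ Nat.card (ZMod 3 × ZMod 3) := by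
    refine card_le_of_inj C (fun y => (y.m11, y.m22)) fun y hy z hz h => ?_
    obtain ⟨ya, yb, yc⟩ := hC hy
    obtain ⟨za, zb, zc⟩ := hC hz
    obtain ⟨y11, y12, y22, y13, y23⟩ := (comm_A_iff x (hC hy)).1 (hc y hy)
    obtain ⟨z11, z12, z22, z13, z23⟩ := (comm_A_iff x (hC hz)).1 (hc z hz)
    rw [Prod.mk.injEq] at h
    obtain ⟨h11, h22⟩ := h
    obtain ⟨h1, h2, h3, h4⟩ := lin1 (a := x.a) (b := x.b) (c := x.c) (m12 := y.m12 - z.m12) (m22 := y.m22 - z.m22) (m13 := y.m13 - z.m13) (m23 := y.m23 - z.m23) (m33 := y.m33 - z.m33) hb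
        (by linear_combination y11 - z11) (by linear_combination y12 - z12) (by linear_combination y22 - z22) (by linear_combination y23 - z23)
        (by rw [h22, sub_self]) (fun h => absurd h ha)
    ext
    · rw [ya, za]
    · rw [yb, zb]
    · rw [yc, zc]
    · exact h11
    · exact sub_eq_zero.1 h1
    · exact h22
    · exact sub_eq_zero.1 h2
    · exact sub_eq_zero.1 h3
    · exact sub_eq_zero.1 h4
  simpa [Nat.card_prod, card_zmod_three] using h1

/-- an abelian subgroup of order `3 ^ 5`, not in `A`, is in `R1` and projects onto `R1 / A` -/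
theorem all_R1 {B : Subgroup P} (h1 : Nat.card B = 3 ^ 5) (h3 : ∀ x ∈ B, ∀ y ∈ B, x * y = y * x) (hA : ¬ B ≤ A) :
    (∀ x ∈ B, x.a = 0) ∧ ∀ b c : ZMod 3, ∃ x ∈ B, x.b = b ∧ x.c = c := by
  have h27 : Nat.card ↥(B ⊓ A) = 27 := by
    have h4 := (card_le_of_comm h3 hA).2
    have h5 := card_le_nine h3
    rw [h1] at h5
    omega
  have hall : ∀ x ∈ B, x.a = 0 := by
    by_contra hne
    push Not at hne
    obtain ⟨x, hx, ha⟩ := hne
    have hb : x.b = 0 := by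
      by_contra hb
      have := card_cA_le_nine ha hb (B ⊓ A) inf_le_right fun y hy => h3 x hx y hy.1
      omega
    have hbB : ∀ y ∈ B, y.b = 0 := by
      intro y hy
      have h4 := ((comm_iff x y).1 (h3 x hx y hy)).1
      rw [hb, mul_zero] at h4
      exact (mul_eq_zero.1 h4).resolve_left ha
    -- an element of type z
    obtain ⟨z, hz, za, zc⟩ : ∃ z ∈ B, z.a = 0 ∧ z.c ≠ 0 := by
      by_contra hne
      push Not at hne
      have h4 : Nat.card B ≤ Nat.card (ZMod 3) * Nat.card ↥(B ⊓ A) := by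
        refine card_le_of_fibre B A (fun y => y.a) fun y hy z hz h => ?_
        have h5 := hne (y⁻¹ * z) (B.mul_mem (B.inv_mem hy) hz) (by rw [mul_a, inv_a, h, neg_add_cancel])
        exact ⟨by rw [mul_a, inv_a, h, neg_add_cancel], hbB _ (B.mul_mem (B.inv_mem hy) hz), h5⟩
      rw [card_zmod_three, h27, h1] at h4
      norm_num at h4
    have h4 : Nat.card ↥(B ⊓ A) ≤ Nat.card (ZMod 3 × ZMod 3) := by
      refine card_le_of_inj (B ⊓ A) (fun y => (y.m11, y.m12)) fun u hu v hv h => ?_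
      rw [Prod.mk.injEq] at h
      obtain ⟨h11, h12⟩ := h
      have key : ∀ w ∈ B ⊓ A, w.m22 = 0 ∧ w.m13 = 0 ∧ w.m23 = 0 ∧ w.m33 = 0 := by
        intro w hw
        obtain ⟨e11, e12, e22, e13, e23⟩ := (comm_A_iff z hw.2).1 (h3 z hz w hw.1)
        simp only [za, hbB z hz, mul_zero, zero_mul, zero_add, ne_eq, OfNat.ofNat_ne_zero, not_false_eq_true, zero_pow, add_zero] at e11 e12 e13
        obtain ⟨k1, k2, k3⟩ := lin3 zc e11 e12 e13
        obtain ⟨f11, f12, f22, f13, f23⟩ := (comm_A_iff x hw.2).1 (h3 x hx w hw.1)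
        simp only [hb, k2, mul_zero, zero_mul, add_zero] at f12
        exact ⟨(mul_eq_zero.1 f12).resolve_left ha, k1, k2, k3⟩
      obtain ⟨k1, k2, k3, k4⟩ := key u hu
      obtain ⟨l1, l2, l3, l4⟩ := key v hv
      obtain ⟨ua, ub, uc⟩ := hu.2
      obtain ⟨va, vb, vc⟩ := hv.2
      ext
      · rw [ua, va]
      · rw [ub, vb]
      · rw [uc, vc]
      · exact h11
      · exact h12
      · rw [k1, l1]
      · rw [k2, l2]
      · rw [k3, l3]
      · rw [k4, l4]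
    rw [h27, Nat.card_prod, card_zmod_three] at h4
    norm_num at h4
  refine ⟨hall, fun b c => ?_⟩
  by_contra hne
  push Not at hne
  have h4 := card_le_of_fibre' B A (fun y => (y.b, y.c)) {((b, c) : ZMod 3 × ZMod 3)}ᶜ (fun x hx h => by
    rw [Set.mem_singleton_iff, Prod.mk.injEq] at h
    exact hne x hx h.1 h.2) fun y hy z hz h => by
    rw [Prod.mk.injEq] at h
    refine ⟨hall _ (B.mul_mem (B.inv_mem hy) hz), by rw [mul_b, inv_b, h.1, neg_add_cancel], ?_⟩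
    rw [mul_c, inv_c, inv_a, hall y hy, h.2]
    ring
  have h5 : Nat.card ↥({((b, c) : ZMod 3 × ZMod 3)}ᶜ : Set (ZMod 3 × ZMod 3)) = 8 := by
    rw [Nat.card_eq_fintype_card, Fintype.card_compl_set]
    simp
  rw [h1, h27, h5] at h4
  norm_num at h4

/-- the elementary abelian subgroups of order `3 ^ 5` -/
theorem elem_five {B : Subgroup P} (h1 : Nat.card B = 3 ^ 5) (h2 : ∀ x ∈ B, x ^ 3 = 1) (h3 : ∀ x ∈ B, ∀ y ∈ B, x * y = y * x) :
    B ≤ A ∨ ∃ i, B = DD i := by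
  by_cases hA : B ≤ A
  · exact Or.inl hA
  refine Or.inr ?_
  obtain ⟨ha, hs⟩ := all_R1 h1 h3 hA
  obtain ⟨x, hx, xb, xc⟩ := hs 1 0
  obtain ⟨z, hz, zb, zc⟩ := hs 0 1
  have xm : x.m33 = 0 := by
    have := (cube_R1 (ha x hx) (h2 x hx)).1
    rwa [xb, one_mul] at this
  have zm : z.m33 = 0 := by
    have := (cube_R1 (ha z hz) (h2 z hz)).2
    rwa [zc, one_mul] at this
  have key : ∀ y ∈ B, y.c * x.m13 = 0 ∧ y.m13 = y.c * x.m23 + y.b * x.m13 ∧ y.m33 = 0 ∧ y.m23 = y.b * x.m23 := by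
    intro y hy
    obtain ⟨-, e11, e12, e22, e13, e23⟩ := (comm_iff x y).1 (h3 x hx y hy)
    simp only [ha x hx, ha y hy, xb, xc, xm, mul_zero, zero_mul, zero_add, add_zero, one_mul, mul_one, one_pow, ne_eq, OfNat.ofNat_ne_zero, not_false_eq_true, zero_pow] at e11 e12 e22 e13 e23
    have h5 : 2 * (y.c * x.m13) = 0 := by linear_combination -e11
    refine ⟨(mul_eq_zero.1 h5).resolve_left two_ne, by linear_combination e12, e23, ?_⟩
    rw [e23] at e22
    have h6 : 2 * (y.m23 - y.b * x.m23) = 0 := by linear_combination e22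
    exact sub_eq_zero.1 ((mul_eq_zero.1 h6).resolve_left two_ne)
  have h13 : x.m13 = 0 := by
    have := (key z hz).1
    rwa [zc, one_mul] at this
  refine ⟨x.m23, Subgroup.eq_of_le_of_card_ge (fun y hy => ?_) (by rw [card_DD, h1])⟩
  obtain ⟨-, h4, h5, h6⟩ := key y hy
  rw [h13, mul_zero, add_zero] at h4
  exact ⟨ha y hy, h5, by rw [h4, mul_comm], by rw [h6, mul_comm]⟩

/-! ### `W5` and `DD i` are elementary abelian -/

theorem comm_A {x y : P} (hx : x ∈ A) (hy : y ∈ A) : x * y = y * x := by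
  obtain ⟨h1, h2, h3⟩ := hx
  obtain ⟨h4, h5, h6⟩ := hy
  rw [comm_iff]
  simp [h1, h2, h3, h4, h5, h6]

theorem comm_DD {i : ZMod 3} {x y : P} (hx : x ∈ DD i) (hy : y ∈ DD i) : x * y = y * x := by
  obtain ⟨h1, h2, h3, h4⟩ := hx
  obtain ⟨h5, h6, h7, h8⟩ := hy
  rw [comm_iff]
  simp only [h1, h2, h3, h4, h5, h6, h7, h8]
  refine ⟨?_, ?_, ?_, ?_, ?_, ?_⟩ <;> ring

theorem cube_A {x : P} (hx : x ∈ A) : x ^ 3 = 1 := by
  obtain ⟨h1, h2, h3⟩ := hx
  have h0 : x ^ 3 = x * (x * x) := by rw [pow_succ, pow_two, mul_assoc]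
  rw [h0]
  ext <;> simp only [mul_a, mul_b, mul_c, mul_m11, mul_m12, mul_m22, mul_m13, mul_m23, mul_m33, h1, h2, h3, one_a, one_b, one_c,
    one_m11, one_m12, one_m22, one_m13, one_m23, one_m33] <;> ring_nf <;> reduce_mod_char

theorem cube_DD {i : ZMod 3} {x : P} (hx : x ∈ DD i) : x ^ 3 = 1 := by
  obtain ⟨h1, h2, h3, h4⟩ := hx
  have h0 : x ^ 3 = x * (x * x) := by rw [pow_succ, pow_two, mul_assoc]
  rw [h0]
  ext <;> simp only [mul_a, mul_b, mul_c, mul_m11, mul_m12, mul_m22, mul_m13, mul_m23, mul_m33, h1, h2, h3, h4, one_a, one_b, one_c,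
    one_m11, one_m12, one_m22, one_m13, one_m23, one_m33] <;> ring_nf <;> reduce_mod_char

theorem W5_le_A : W5 ≤ A := fun _ hx => ⟨hx.1, hx.2.1, hx.2.2.1⟩
theorem W5_le_R3 : W5 ≤ R3 := fun _ hx => hx.2.2.2
theorem DD_le_R3 (i : ZMod 3) : DD i ≤ R3 := fun _ hx => hx.2.1
theorem W3_le_W5 : W3 ≤ W5 := fun _ hx => ⟨hx.1, hx.2.1, hx.2.2.1, hx.2.2.2.2.2⟩
theorem W3_le_DD (i : ZMod 3) : W3 ≤ DD i := fun x hx =>
  ⟨hx.1, hx.2.2.2.2.2, by rw [hx.2.2.2.1, hx.2.2.1, mul_zero], by rw [hx.2.2.2.2.1, hx.2.1, mul_zero]⟩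
theorem W3_le_R3 : W3 ≤ R3 := fun _ hx => hx.2.2.2.2.2
theorem W1_le_R3 : W1 ≤ R3 := fun _ hx => hx.2.2.2.2.2.2.2

/-- the elementary abelian subgroups of order `3 ^ 5` of `R3` -/
theorem elem_five_R3 {B : Subgroup P} (h1 : Nat.card B = 3 ^ 5) (h2 : ∀ x ∈ B, x ^ 3 = 1) (h3 : ∀ x ∈ B, ∀ y ∈ B, x * y = y * x)
    (h4 : B ≤ R3) : B = W5 ∨ ∃ i, B = DD i := by
  rcases elem_five h1 h2 h3 with h | h
  · refine Or.inl (Subgroup.eq_of_le_of_card_ge (fun x hx => ?_) (by rw [card_W5, h1]))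
    exact ⟨(h hx).1, (h hx).2.1, (h hx).2.2, h4 hx⟩
  · exact Or.inr h

/-! ### centralizers -/

theorem center_R3 {x : P} (hx : ∀ y ∈ R3, x * y = y * x) : x ∈ W1 := by
  have e1 := (comm_iff x ⟨1, 0, 0, 0, 0, 0, 0, 0, 0⟩).1 (hx _ rfl)
  have e2 := (comm_iff x ⟨0, 1, 0, 0, 0, 0, 0, 0, 0⟩).1 (hx _ rfl)
  have e3 := (comm_iff x ⟨0, 0, 0, 0, 0, 0, 1, 0, 0⟩).1 (hx _ rfl)
  obtain ⟨a1, a2, a3, a4, a5, a6⟩ := e1
  obtain ⟨b1, b2, b3, b4, b5, b6⟩ := e2
  obtain ⟨c1, c2, c3, c4, c5, c6⟩ := e3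
  simp only [mul_zero, mul_one, zero_mul, one_mul, zero_add, add_zero, one_pow, ne_eq, OfNat.ofNat_ne_zero, not_false_eq_true, zero_pow] at a1 a2 a3 a4 a5 a6 b1 b2 b3 b4 b5 b6 c1 c2 c3 c4 c5 c6
  have hc : x.c = 0 := (mul_eq_zero.1 c2).resolve_left two_ne
  have h22 : x.m22 = 0 := a3.symm
  have h23 : x.m23 = 0 := a5.symm
  have h12 : x.m12 = 0 := by
    rw [h22, add_zero] at a2
    exact (mul_eq_zero.1 a2.symm).resolve_left two_ne
  exact ⟨b1, a1.symm, hc, h12, h22, b3.symm, h23, b6.symm⟩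

/-- `W1` is central -/
theorem comm_W1 {x : P} (hx : x ∈ W1) (y : P) : x * y = y * x := by
  obtain ⟨h1, h2, h3, h4, h5, h6, h7, h8⟩ := hx
  rw [comm_iff]
  simp [h1, h2, h3, h4, h5, h6, h7, h8]

/-- the centralizer of `W3` -/
theorem mem_R1_iff {x : P} : x ∈ R1 ↔ ∀ y ∈ W3, x * y = y * x := by
  constructor
  · intro (hx : x.a = 0) y hy
    obtain ⟨h1, h2, h3, h4, h5, h6⟩ := hy
    rw [comm_iff]
    simp [h1, h2, h3, h4, h5, h6, hx]
  · intro hx
    have e1 := (comm_iff x ⟨0, 0, 0, 0, 0, 1, 0, 0, 0⟩).1 (hx _ ⟨rfl, rfl, rfl, rfl, rfl, rfl⟩)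
    obtain ⟨a1, a2, a3, a4, a5, a6⟩ := e1
    simp only [mul_zero, mul_one, zero_mul, add_zero] at a3
    exact a3

/-! ### automorphisms of `R3` -/

section Aut

variable {f : P → P} (hm : ∀ x ∈ R3, f x ∈ R3) (hmul : ∀ x ∈ R3, ∀ y ∈ R3, f (x * y) = f x * f y)
  (hinj : ∀ x ∈ R3, ∀ y ∈ R3, f x = f y → x = y)

/-- the homomorphism of `R3` into `P` -/
def hom (hmul : ∀ x ∈ R3, ∀ y ∈ R3, f (x * y) = f x * f y) : R3 →* P :=
  MonoidHom.mk' (fun x => f x) fun x y => hmul x x.2 y y.2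

theorem hom_apply (x : R3) : hom hmul x = f x := rfl

include hmul in
theorem f_one : f 1 = 1 := (hom hmul).map_one

include hinj in
theorem hom_injective : Function.Injective (hom hmul) := fun x y h => Subtype.ext (hinj x x.2 y y.2 h)

include hm hinj in
theorem f_surj : ∀ y ∈ R3, ∃ x ∈ R3, f x = y := by
  have h1 : Function.Injective (fun x : R3 => (⟨f x, hm x x.2⟩ : R3)) := fun x y h =>
    Subtype.ext (hinj x x.2 y y.2 (congrArg Subtype.val h))
  intro y hy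
  obtain ⟨x, hx⟩ := Finite.surjective_of_injective h1 ⟨y, hy⟩
  exact ⟨x, x.2, congrArg Subtype.val hx⟩

/-- the image of a subgroup of `R3` -/
def img (hmul : ∀ x ∈ R3, ∀ y ∈ R3, f (x * y) = f x * f y) (E : Subgroup P) : Subgroup P := (E.subgroupOf R3).map (hom hmul)

theorem mem_img {E : Subgroup P} (hE : E ≤ R3) {y : P} : y ∈ img hmul E ↔ ∃ x ∈ E, f x = y := by
  constructor
  · rintro ⟨x, hx, rfl⟩
    exact ⟨x, Subgroup.mem_subgroupOf.1 hx, rfl⟩
  · rintro ⟨x, hx, rfl⟩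
    exact ⟨⟨x, hE hx⟩, Subgroup.mem_subgroupOf.2 hx, rfl⟩

include hinj in
theorem card_img {E : Subgroup P} (hE : E ≤ R3) : Nat.card (img hmul E) = Nat.card E := by
  rw [img, Subgroup.card_map_of_injective (hom_injective hmul hinj)]
  exact Nat.card_congr (Subgroup.subgroupOfEquivOfLe hE).toEquiv

include hm hinj in
theorem img_five {E : Subgroup P} (h4 : E ≤ R3) (h1 : Nat.card E = 3 ^ 5) (h2 : ∀ x ∈ E, x ^ 3 = 1) (h3 : ∀ x ∈ E, ∀ y ∈ E, x * y = y * x) :
    img hmul E = W5 ∨ ∃ i, img hmul E = DD i := by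
  refine elem_five_R3 (by rw [card_img hmul hinj h4, h1]) ?_ ?_ ?_
  · intro x hx
    obtain ⟨y, hy, rfl⟩ := (mem_img hmul h4).1 hx
    have h5 : f y ^ 3 = f (y ^ 3) := ((hom hmul).map_pow ⟨y, h4 hy⟩ 3).symm
    rw [h5, h2 y hy, f_one hmul]
  · intro x' hx' y' hy'
    obtain ⟨x, hx, rfl⟩ := (mem_img hmul h4).1 hx'
    obtain ⟨y, hy, rfl⟩ := (mem_img hmul h4).1 hy'
    rw [← hmul x (h4 hx) y (h4 hy), h3 x hx y hy, hmul y (h4 hy) x (h4 hx)]
  · intro x' hx'
    obtain ⟨x, hx, rfl⟩ := (mem_img hmul h4).1 hx'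
    exact hm x (h4 hx)

include hm hmul hinj in
theorem img_W5 : img hmul W5 = W5 ∨ ∃ i, img hmul W5 = DD i :=
  img_five hm hmul hinj W5_le_R3 card_W5 (fun _ hx => cube_A (W5_le_A hx)) fun _ hx _ hy => comm_A (W5_le_A hx) (W5_le_A hy)

include hm hmul hinj in
theorem img_DD (i : ZMod 3) : img hmul (DD i) = W5 ∨ ∃ j, img hmul (DD i) = DD j :=
  img_five hm hmul hinj (DD_le_R3 i) (card_DD i) (fun _ hx => cube_DD hx) fun _ hx _ hy => comm_DD hx hy

/-- an inverse of `f` on `R3` -/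
theorem exists_inverse (hm : ∀ x ∈ R3, f x ∈ R3) (hmul : ∀ x ∈ R3, ∀ y ∈ R3, f (x * y) = f x * f y)
    (hinj : ∀ x ∈ R3, ∀ y ∈ R3, f x = f y → x = y) :
    ∃ g : P → P, (∀ x ∈ R3, g x ∈ R3) ∧ (∀ x ∈ R3, ∀ y ∈ R3, g (x * y) = g x * g y) ∧ (∀ x ∈ R3, ∀ y ∈ R3, g x = g y → x = y) ∧
      (∀ x ∈ R3, f (g x) = x) ∧ ∀ x ∈ R3, g (f x) = x := by
  classical
  choose! g hg hfg using f_surj hm hinj
  refine ⟨g, hg, fun x hx y hy => ?_, fun x hx y hy h => ?_, hfg, fun x hx => ?_⟩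
  · refine hinj _ (hg _ (R3.mul_mem hx hy)) _ (R3.mul_mem (hg x hx) (hg y hy)) ?_
    rw [hfg _ (R3.mul_mem hx hy), hmul _ (hg x hx) _ (hg y hy), hfg x hx, hfg y hy]
  · rw [← hfg x hx, ← hfg y hy, h]
  · exact hinj _ (hg _ (hm x hx)) _ hx (hfg _ (hm x hx))

include hm hmul hinj in
theorem map_W1 : ∀ x ∈ W1, f x ∈ W1 := by
  intro x hx
  refine center_R3 fun y hy => ?_
  obtain ⟨z, hz, rfl⟩ := f_surj hm hinj y hy
  rw [← hmul x (W1_le_R3 hx) z hz, comm_W1 hx, hmul z hz x (W1_le_R3 hx)]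

include hm hmul hinj in
theorem map_W3 : ∀ x ∈ W3, f x ∈ W3 := by
  intro x hx
  obtain ⟨g, hg1, hg2, hg3, hfg, hgf⟩ := exists_inverse hm hmul hinj
  have key : ∀ E : Subgroup P, E ≤ R3 → (img hg2 E = W5 ∨ ∃ i, img hg2 E = DD i) → f x ∈ E := by
    intro E hE h
    have h1 : x ∈ img hg2 E := by
      rcases h with h | ⟨i, h⟩
      · rw [h]; exact W3_le_W5 hx
      · rw [h]; exact W3_le_DD i hx
    obtain ⟨y, hy, hyx⟩ := (mem_img hg2 hE).1 h1
    rw [← hyx, hfg y (hE hy)]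
    exact hy
  have h1 := key W5 W5_le_R3 (img_W5 hg1 hg2 hg3)
  have h2 := key (DD 0) (DD_le_R3 0) (img_DD hg1 hg2 hg3 0)
  exact ⟨h1.1, h1.2.1, h1.2.2.1, by rw [h2.2.2.1, zero_mul], by rw [h2.2.2.2, zero_mul], h1.2.2.2⟩

include hm hmul hinj in
theorem map_R1 : ∀ x ∈ R1 ⊓ R3, f x ∈ R1 := by
  rintro x ⟨hx1, hx3⟩
  obtain ⟨g, hg1, hg2, hg3, hfg, hgf⟩ := exists_inverse hm hmul hinj
  refine mem_R1_iff.2 fun y hy => ?_
  have hy3 := W3_le_R3 hy
  have h1 := map_W3 hg1 hg2 hg3 y hy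
  have h2 := mem_R1_iff.1 hx1 _ h1
  rw [← hfg y hy3, ← hmul x hx3 _ (hg1 y hy3), h2, hmul _ (hg1 y hy3) x hx3]

include hm hmul hinj in
theorem auts_R3_basic :
    (∀ x ∈ W1, f x ∈ W1) ∧ (∀ x ∈ W3, f x ∈ W3) ∧ (∀ x ∈ R1 ⊓ R3, f x ∈ R1) ∧
    ((∀ x ∈ W5, f x ∈ W5) ∨ ∃ i, ∀ x ∈ W5, f x ∈ DD i) ∧ (∀ i, (∀ x ∈ DD i, f x ∈ W5) ∨ ∃ j, ∀ x ∈ DD i, f x ∈ DD j) := by
  refine ⟨map_W1 hm hmul hinj, map_W3 hm hmul hinj, map_R1 hm hmul hinj, ?_, fun i => ?_⟩
  · rcases img_W5 hm hmul hinj with h | ⟨i, h⟩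
    · exact Or.inl fun x hx => by rw [← h]; exact (mem_img hmul W5_le_R3).2 ⟨x, hx, rfl⟩
    · exact Or.inr ⟨i, fun x hx => by rw [← h]; exact (mem_img hmul W5_le_R3).2 ⟨x, hx, rfl⟩⟩
  · rcases img_DD hm hmul hinj i with h | ⟨j, h⟩
    · exact Or.inl fun x hx => by rw [← h]; exact (mem_img hmul (DD_le_R3 i)).2 ⟨x, hx, rfl⟩
    · exact Or.inr ⟨j, fun x hx => by rw [← h]; exact (mem_img hmul (DD_le_R3 i)).2 ⟨x, hx, rfl⟩⟩

end Aut

end Cfsg.Agent.H328.CoP
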